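import Mathlib

/-!
# Groups in which squares lie in the commutator subgroup
-/

set_option autoImplicit false

namespace Cfsg.Agent.Lib.SqSyl

open scoped commutatorElement

/-- Squares lie in the commutator subgroup. -/
def SC (H : Type*) [Group H] : Prop := ∀ x : H, x ^ 2 ∈ commutator H

theorem SC.of_surj {H K : Type*} [Group H] [Group K] (f : H →* K) (hf : Function.Surjective f)
    (h : SC H) : SC K := by
  intro y
  obtain ⟨x, rfl⟩ := hf y
  rw [← map_pow]
  have h2 : (commutator H).map f ≤ commutator K := by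
    rw [commutator_def, commutator_def, Subgroup.map_commutator]
    exact Subgroup.commutator_mono le_top le_top
  exact h2 ⟨_, h x, rfl⟩

theorem SC.of_equiv {H K : Type*} [Group H] [Group K] (e : H ≃* K) (h : SC H) : SC K :=
  SC.of_surj e.toMonoidHom e.surjective h

section sub

variable {G : Type*} [Group G]

/-- The elements of `U` whose square lies in `U'`, a subgroup. -/
def sqSub (U : Subgroup G) : Subgroup G :=
  (((powMonoidHom 2 : Abelianization ↥U →* Abelianization ↥U).comp Abelianization.of).ker).map U.subtype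

theorem mem_sqSub {U : Subgroup G} {x : G} :
    x ∈ sqSub U ↔ ∃ h : x ∈ U, (⟨x, h⟩ : ↥U) ^ 2 ∈ commutator ↥U := by
  constructor
  · rintro ⟨y, hy, rfl⟩
    refine ⟨y.2, ?_⟩
    have h1 : (Abelianization.of (y : ↥U)) ^ 2 = 1 := hy
    rw [← map_pow] at h1
    have h2 : y ^ 2 ∈ (Abelianization.of : ↥U →* Abelianization ↥U).ker := h1
    rw [Abelianization.ker_of] at h2
    exact h2
  · rintro ⟨h, h2⟩
    refine ⟨⟨x, h⟩, ?_, rfl⟩
    rw [← Abelianization.ker_of] at h2
    show (Abelianization.of (⟨x, h⟩ : ↥U)) ^ 2 = 1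
    rw [← map_pow]
    exact h2

theorem SC_of_le {U : Subgroup G} (h : U ≤ sqSub U) : SC ↥U := by
  intro x
  obtain ⟨_, h2⟩ := mem_sqSub.1 (h x.2)
  exact h2

theorem mem_sqSub_of_sq {U : Subgroup G} {x : G} (hx : x ∈ U) (h : x * x = 1) : x ∈ sqSub U := by
  refine mem_sqSub.2 ⟨hx, ?_⟩
  have : (⟨x, hx⟩ : ↥U) ^ 2 = 1 := Subtype.ext (by simpa [pow_two] using h)
  rw [this]
  exact Subgroup.one_mem _

theorem mem_sqSub_of_comm {U : Subgroup G} {x a b : G} (hx : x ∈ U) (ha : a ∈ U) (hb : b ∈ U)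
    (h : x * x = a * b * a⁻¹ * b⁻¹) : x ∈ sqSub U := by
  refine mem_sqSub.2 ⟨hx, ?_⟩
  have : (⟨x, hx⟩ : ↥U) ^ 2 = ⁅(⟨a, ha⟩ : ↥U), (⟨b, hb⟩ : ↥U)⁆ := by
    apply Subtype.ext
    rw [commutatorElement_def]
    simpa [pow_two] using h
  rw [this]
  exact Subgroup.commutator_mem_commutator (Subgroup.mem_top _) (Subgroup.mem_top _)

/-- If `y` has square in `U'` where the square is witnessed in a subgroup of `U`. -/
theorem mem_sqSub_of_sub {U K : Subgroup G} (hK : K ≤ U) {x : G} (h : x ∈ sqSub K) : x ∈ sqSub U := by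
  obtain ⟨hx, h2⟩ := mem_sqSub.1 h
  refine mem_sqSub.2 ⟨hK hx, ?_⟩
  have h3 : (commutator ↥K).map (Subgroup.inclusion hK) ≤ commutator ↥U := by
    rw [commutator_def, commutator_def, Subgroup.map_commutator]
    exact Subgroup.commutator_mono le_top le_top
  exact h3 ⟨_, h2, rfl⟩

end sub

/-- All Sylow subgroups have the property. -/
def AllSC (p : ℕ) [Fact p.Prime] (G : Type*) [Group G] : Prop :=
  ∀ P : Sylow p G, SC ↥(P : Subgroup G)

section sylow

variable {p : ℕ} [Fact p.Prime] {G Q : Type*} [Group G] [Group Q]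

theorem AllSC.of_sylow [Finite G] (P₀ : Sylow p G) (h : SC ↥(P₀ : Subgroup G)) : AllSC p G := fun P =>
  SC.of_equiv (Sylow.equiv P₀ P) h

theorem AllSC.of_sub [Finite G] {U : Subgroup G} (hU : IsPGroup p U) (hi : ¬ p ∣ U.index) (h : SC ↥U) :
    AllSC p G := by
  refine AllSC.of_sylow (hU.toSylow hi) ?_
  rw [IsPGroup.toSylow_coe]
  exact h

theorem AllSC.of_card [Finite G] {U : Subgroup G} (hc : Nat.card U = p ^ (Nat.card G).factorization p)
    (h : SC ↥U) : AllSC p G := by
  classical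
  refine AllSC.of_sylow (Sylow.ofCard U hc) ?_
  exact h

theorem AllSC.of_surj [Finite G] (f : G →* Q) (hf : Function.Surjective f) (h : AllSC p G) : AllSC p Q := by
  classical
  haveI : Finite Q := Finite.of_surjective f hf
  obtain ⟨P₀⟩ : Nonempty (Sylow p G) := inferInstance
  refine AllSC.of_sylow (P₀.mapSurjective hf) ?_
  have hP : ((P₀.mapSurjective hf : Sylow p Q) : Subgroup Q) = (P₀ : Subgroup G).map f := rfl
  rw [hP]
  exact SC.of_surj (f.subgroupMap (P₀ : Subgroup G)) (f.subgroupMap_surjective _) (h P₀)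

theorem AllSC.of_equiv [Finite G] (e : G ≃* Q) (h : AllSC p G) : AllSC p Q :=
  AllSC.of_surj e.toMonoidHom e.surjective h

end sylow

end Cfsg.Agent.Lib.SqSyl
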