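import Cfsg.Agent.Lib.SqSyl.Basic
import Cfsg.Agent.Lib.AutPSL.Sylow

/-!
# Unitriangular groups in characteristic two are generated by involutions
-/

set_option autoImplicit false

namespace Cfsg.Agent.Lib.SqSyl

open Matrix Cfsg.Agent.Lib.AutPSL

noncomputable section

variable {n : ℕ} {F : Type*} [Field F]

/-- The part of column `k` above the diagonal. -/
def colN (M : Matrix (Fin n) (Fin n) F) (k : Fin n) : Matrix (Fin n) (Fin n) F :=
  fun i l => if l = k ∧ i < k then M i l else 0

/-- The column transvection. -/
def colX (M : Matrix (Fin n) (Fin n) F) (k : Fin n) : Matrix (Fin n) (Fin n) F := 1 + colN M k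

theorem colN_sq (M : Matrix (Fin n) (Fin n) F) (k : Fin n) : colN M k * colN M k = 0 := by
  ext i l
  rw [Matrix.mul_apply]
  apply Finset.sum_eq_zero
  intro a _
  unfold colN
  by_cases h1 : a = k
  · subst h1
    simp
  · simp [h1]

theorem colX_sq (h2 : (2 : F) = 0) (M : Matrix (Fin n) (Fin n) F) (k : Fin n) :
    colX M k * colX M k = 1 := by
  unfold colX
  rw [add_mul, mul_add, mul_add, colN_sq, one_mul, mul_one, one_mul, add_zero, add_assoc, ← two_smul F (colN M k)]
  rw [h2, zero_smul, add_zero]

theorem colX_det (h2 : (2 : F) = 0) (M : Matrix (Fin n) (Fin n) F) (k : Fin n) : (colX M k).det = 1 := by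
  have h := congrArg Matrix.det (colX_sq h2 M k)
  rw [Matrix.det_mul, Matrix.det_one] at h
  have h3 : ((colX M k).det - 1) * ((colX M k).det - 1) = 0 := by
    have e : ((colX M k).det - 1) * ((colX M k).det - 1) = (colX M k).det * (colX M k).det - 2 * (colX M k).det + 1 := by ring
    rw [e, h, h2]
    ring_nf
    exact h2
  exact sub_eq_zero.1 (mul_self_eq_zero.1 h3)

variable [Finite F]

theorem colX_mem (h2 : (2 : F) = 0) (M : Matrix (Fin n) (Fin n) F) (k : Fin n) :
    (⟨colX M k, colX_det h2 M k⟩ : SpecialLinearGroup (Fin n) F) ∈ uni n F := by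
  refine mem_uni.2 ?_
  intro i j hji
  show colX M k i j = _
  have e : colX M k i j = (1 : Matrix (Fin n) (Fin n) F) i j + colN M k i j := rfl
  have e1 : colN M k i j = if j = k ∧ i < k then M i j else 0 := rfl
  have : ¬ (j = k ∧ i < k) := by
    rintro ⟨rfl, h⟩
    exact absurd h (not_lt.2 hji)
  rw [e, e1, if_neg this, add_zero]

theorem uni_mem_sq (h2 : (2 : F) = 0) : ∀ d k : ℕ, k + d = n → ∀ s ∈ uni n F,
    (∀ l : Fin n, l.val < k → ∀ i, (s : Matrix (Fin n) (Fin n) F) i l = (1 : Matrix (Fin n) (Fin n) F) i l) →
    s ∈ sqSub (uni n F) := by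
  intro d
  induction d with
  | zero =>
    intro k hk s hs hc
    have : s = 1 := by
      apply Subtype.ext
      ext i l
      exact hc l (by have := l.2; omega) i
    rw [this]
    exact Subgroup.one_mem _
  | succ d ih =>
    intro k hk s hs hc
    let k' : Fin n := ⟨k, by omega⟩
    let X : SpecialLinearGroup (Fin n) F := ⟨colX (s : Matrix (Fin n) (Fin n) F) k', colX_det h2 _ _⟩
    have hX : X ∈ uni n F := colX_mem h2 _ _
    have hXX : X * X = 1 := Subtype.ext (colX_sq h2 _ _)
    have hXH : X ∈ sqSub (uni n F) := mem_sqSub_of_sq hX hXX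
    have hy : s * X ∈ uni n F := (uni n F).mul_mem hs hX
    have hyH : s * X ∈ sqSub (uni n F) := by
      refine ih (k + 1) (by omega) _ hy ?_
      intro l hl i
      have e : ((s * X : SpecialLinearGroup (Fin n) F) : Matrix (Fin n) (Fin n) F) i l =
          (s : Matrix (Fin n) (Fin n) F) i l + ∑ a, (s : Matrix (Fin n) (Fin n) F) i a * colN (s : Matrix (Fin n) (Fin n) F) k' a l := by
        show ((s : Matrix (Fin n) (Fin n) F) * (1 + colN (s : Matrix (Fin n) (Fin n) F) k')) i l = _
        rw [mul_add, mul_one, Matrix.add_apply, Matrix.mul_apply]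
      rw [e]
      by_cases hlk : l = k'
      · subst hlk
        have e2 : ∀ a, (s : Matrix (Fin n) (Fin n) F) i a * colN (s : Matrix (Fin n) (Fin n) F) k' a k' =
            if a = i ∧ i < k' then (s : Matrix (Fin n) (Fin n) F) i k' else 0 := by
          intro a
          have e1 : colN (s : Matrix (Fin n) (Fin n) F) k' a k' = if k' = k' ∧ a < k' then (s : Matrix (Fin n) (Fin n) F) a k' else 0 := rfl
          rw [e1]
          by_cases ha : a < k'
          · rw [if_pos ⟨rfl, ha⟩, hc a ha i]
            by_cases hai : a = i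
            · subst hai
              simp [ha]
            · simp [hai, Ne.symm hai]
          · have : ¬ (a = i ∧ i < k') := by
              rintro ⟨rfl, h⟩
              exact ha h
            simp [this, ha]
        rw [Finset.sum_congr rfl (fun a _ => e2 a)]
        by_cases hik : i < k'
        · have e3 : ∑ a, (if a = i ∧ i < k' then (s : Matrix (Fin n) (Fin n) F) i k' else 0) =
              (s : Matrix (Fin n) (Fin n) F) i k' := by
            rw [Finset.sum_eq_single i]
            · simp [hik]
            · intro b _ hb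
              simp [hb]
            · simp
          rw [e3, ← two_mul, h2, zero_mul, Matrix.one_apply_ne hik.ne]
        · have e3 : ∑ a, (if a = i ∧ i < k' then (s : Matrix (Fin n) (Fin n) F) i k' else 0) = 0 := by
            apply Finset.sum_eq_zero
            intro a _
            simp [hik]
          rw [e3, add_zero]
          exact hs i k' (not_lt.1 hik)
      · have hl2 : l.val < k := by
          have : l.val ≠ k := fun e => hlk (Fin.ext e)
          omega
        have e3 : ∑ a, (s : Matrix (Fin n) (Fin n) F) i a * colN (s : Matrix (Fin n) (Fin n) F) k' a l = 0 := by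
          apply Finset.sum_eq_zero
          intro a _
          have e1 : colN (s : Matrix (Fin n) (Fin n) F) k' a l = if l = k' ∧ a < k' then (s : Matrix (Fin n) (Fin n) F) a l else 0 := rfl
          rw [e1]
          simp [hlk]
        rw [e3, add_zero]
        exact hc l hl2 i
    have e : s = (s * X) * X := by
      rw [mul_assoc, hXX, mul_one]
    rw [e]
    exact Subgroup.mul_mem _ hyH hXH

theorem SC_uni (h2 : (2 : F) = 0) : SC ↥(uni n F) := by
  apply SC_of_le
  intro s hs
  exact uni_mem_sq h2 n 0 (by omega) s hs (fun l hl => absurd hl (Nat.not_lt_zero _))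

/-- Linear groups. -/
theorem allSC_PSL [Fintype F] [CharP F 2] (hn : 1 ≤ n) :
    AllSC 2 (ProjectiveSpecialLinearGroup (Fin n) F) := by
  haveI : Fact (Nat.Prime 2) := ⟨Nat.prime_two⟩
  obtain ⟨f, hp, hf⟩ := FiniteField.card F 2
  have hf1 : 1 ≤ (f : ℕ) := f.2
  refine AllSC.of_sub (U := uniBar n F) (isPGroup_uniBar hp hf (⟨0, hn⟩ : Fin n))
    (not_dvd_index hp hf1 hf (⟨0, hn⟩ : Fin n)) ?_
  exact SC.of_surj (((QuotientGroup.mk' _).subgroupMap (uni n F)))
    (MonoidHom.subgroupMap_surjective _ _) (SC_uni CharTwo.two_eq_zero)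

end

end Cfsg.Agent.Lib.SqSyl
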