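import Cfsg.Agent.Lib.SqSyl.Basic
import Cfsg.Agent.Lib.ClPolar8

/-!
# Squares of Siegel elements in characteristic two
-/

set_option autoImplicit false
set_option linter.unusedSectionVars false
set_option linter.unusedVariables false

namespace Cfsg.Agent.Lib.SqSyl

open Cfsg.Agent.Lib.ClPolar

noncomputable section

variable {F V A K : Type*} [Field F] [AddCommGroup V] [Module F V] [Group A] {m : ℕ}
  {S : Sys F V A K m}

/-- The data of a Siegel element. -/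
structure SD (S : Sys F V A K m) (g : A) (i : Fin m) (z : V) : Prop where
  hz : S.Nm z = 0
  hz1 : S.φ (S.e i) z = 1
  he : S.ρ g (S.e i) = S.e i
  hf : S.ρ g (S.f i) = z
  hX : ∀ a : Fin m × Bool, a.1 ≠ i → S.ρ g (S.X a) = S.X a - S.φ (S.X a) z • S.e i
  hw : ∀ j, S.ρ g (S.w j) = S.w j - S.φ (S.w j) z • S.e i

theorem eps_eq_one (S : Sys F V A K m) (h2 : (2 : F) = 0) : S.ε = 1 := by
  have h : (S.ε - 1) * (S.ε - 1) = 0 := by
    have e : (S.ε - 1) * (S.ε - 1) = S.ε * S.ε - 2 * S.ε + 1 := by ring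
    rw [e, S.εε, h2]
    ring_nf
    exact h2
  have := mul_self_eq_zero.1 h
  exact sub_eq_zero.1 this

theorem two_v (h2 : (2 : F) = 0) (v : V) : v + v = 0 := by
  rw [← two_smul F v, h2, zero_smul]

variable {g : A} {i : Fin m} {z : V}

theorem φ_e_e (S : Sys F V A K m) (i : Fin m) : S.φ (S.e i) (S.e i) = 0 := S.φ_ee i i
theorem φ_e_f (S : Sys F V A K m) (i : Fin m) : S.φ (S.e i) (S.f i) = 1 := by rw [S.φ_ef, if_pos rfl]
theorem φ_f_f (S : Sys F V A K m) (i : Fin m) : S.φ (S.f i) (S.f i) = 0 := S.φ_ff i i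
theorem φ_f_e (S : Sys F V A K m) (h2 : (2 : F) = 0) (i : Fin m) : S.φ (S.f i) (S.e i) = 1 := by
  rw [S.φ_fe, if_pos rfl, eps_eq_one S h2]

/-- The action of a Siegel element. -/
theorem SD.apply (h2 : (2 : F) = 0) (h : SD S g i z) (v : V) :
    S.ρ g v = v + S.φ v (S.e i) • (z - S.f i) -
      (S.φ v z - S.φ v (S.e i) * S.φ (S.f i) z - S.φ v (S.f i)) • S.e i := by
  induction v using S.Y_induction with
  | h0 =>
    simp [S.φ_zero_l]
  | h1 b =>
    rcases b with a | k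
    · by_cases ha : a.1 = i
      · obtain ⟨a1, x⟩ := a
        obtain rfl : a1 = i := ha
        cases x
        · show S.ρ g (S.f a1) = S.f a1 + S.φ (S.f a1) (S.e a1) • (z - S.f a1) -
            (S.φ (S.f a1) z - S.φ (S.f a1) (S.e a1) * S.φ (S.f a1) z - S.φ (S.f a1) (S.f a1)) • S.e a1
          rw [h.hf, φ_f_e S h2, φ_f_f]
          simp
        · show S.ρ g (S.e a1) = S.e a1 + S.φ (S.e a1) (S.e a1) • (z - S.f a1) -
            (S.φ (S.e a1) z - S.φ (S.e a1) (S.e a1) * S.φ (S.f a1) z - S.φ (S.e a1) (S.f a1)) • S.e a1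
          rw [h.he, φ_e_e, φ_e_f, h.hz1]
          simp
      · have h1 : S.φ (S.X a) (S.e i) = 0 := by
          apply S.φ_X_of_ne
          intro e
          exact ha (congrArg Prod.fst e).symm
        have h3 : S.φ (S.X a) (S.f i) = 0 := by
          apply S.φ_X_of_ne
          intro e
          exact ha (congrArg Prod.fst e).symm
        show S.ρ g (S.X a) = S.X a + S.φ (S.X a) (S.e i) • (z - S.f i) -
            (S.φ (S.X a) z - S.φ (S.X a) (S.e i) * S.φ (S.f i) z - S.φ (S.X a) (S.f i)) • S.e i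
        rw [h.hX a ha, h1, h3]
        simp
    · have h1 : S.φ (S.w k) (S.e i) = 0 := S.φ_wX k _
      have h3 : S.φ (S.w k) (S.f i) = 0 := S.φ_wX k _
      show S.ρ g (S.w k) = S.w k + S.φ (S.w k) (S.e i) • (z - S.f i) -
            (S.φ (S.w k) z - S.φ (S.w k) (S.e i) * S.φ (S.f i) z - S.φ (S.w k) (S.f i)) • S.e i
      rw [h.hw k, h1, h3]
      simp
  | h2 x y hx hy =>
    rw [map_add, hx, hy]
    simp only [S.add_l]
    module
  | h3 c x hx =>
    rw [Sys.ρ_smul, hx]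
    simp only [S.smul_l]
    module

/-- `φ(z, f)`. -/
def cOf (S : Sys F V A K m) (i : Fin m) (z : V) : F := S.φ z (S.f i)

theorem φ_f_z (h2 : (2 : F) = 0) (S : Sys F V A K m) (i : Fin m) (z : V) :
    S.φ (S.f i) z = S.τ (cOf S i z) := by
  rw [S.symm z (S.f i), eps_eq_one S h2, one_mul]
  rfl

theorem SD.φ_z_e (h2 : (2 : F) = 0) (h : SD S g i z) : S.φ z (S.e i) = 1 := by
  rw [S.symm (S.e i) z, eps_eq_one S h2, h.hz1, map_one, one_mul]

theorem SD.φ_z_z (h : SD S g i z) : S.φ z z = 0 := S.sing_self z h.hz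

/-- The square of a Siegel element on `z`. -/
theorem SD.apply_z (h2 : (2 : F) = 0) (h : SD S g i z) :
    S.ρ g z = S.f i + (cOf S i z + S.τ (cOf S i z)) • S.e i := by
  rw [h.apply h2 z, h.φ_z_e h2, h.φ_z_z, φ_f_z h2]
  show z + (1 : F) • (z - S.f i) - (0 - 1 * S.τ (cOf S i z) - cOf S i z) • S.e i = _
  linear_combination (norm := module) two_v h2 z - two_v h2 (S.f i)

/-- The square of a Siegel element. -/
theorem SD.sq_apply (h2 : (2 : F) = 0) (h : SD S g i z) (v : V) :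
    S.ρ (g * g) v = v + (S.φ v (S.e i) * (cOf S i z + S.τ (cOf S i z))) • S.e i := by
  rw [Sys.ρ_mul_apply]
  have e1 : S.ρ g (S.ρ g v) = S.ρ g v + S.φ v (S.e i) • (S.ρ g z - S.ρ g (S.f i)) -
      (S.φ v z - S.φ v (S.e i) * S.φ (S.f i) z - S.φ v (S.f i)) • S.ρ g (S.e i) := by
    conv_lhs => rw [h.apply h2 v]
    rw [map_sub, map_add, Sys.ρ_smul, Sys.ρ_smul, map_sub]
  rw [e1, h.apply_z h2, h.hf, h.he, h.apply h2 v]
  set L := S.φ v z - S.φ v (S.e i) * S.φ (S.f i) z - S.φ v (S.f i) with hL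
  set a := S.φ v (S.e i) with ha
  set D := cOf S i z + S.τ (cOf S i z) with hD
  linear_combination (norm := module) (-(L) • two_v h2 (S.e i))

/-- Involutions: the form is bilinear. -/
theorem SD.sq_eq_one_of_id (h2 : (2 : F) = 0) (hτ : ∀ c, S.τ c = c) (h : SD S g i z) : g * g = 1 := by
  apply S.ρ_inj
  rw [map_one]
  apply LinearMap.ext
  intro v
  rw [h.sq_apply h2, hτ]
  have e : cOf S i z + cOf S i z = 2 * cOf S i z := by ring
  rw [e, h2]
  simp

section herm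

variable {z₂ : V} {g₂ : A}

/-- The commutator identity for two Siegel elements. -/
theorem SD.comm_eq (h2 : (2 : F) = 0) (h : SD S g i z) (h' : SD S g₂ i z₂)
    (hE : S.ρ g z₂ - S.ρ g₂ z = (cOf S i z + S.τ (cOf S i z)) • S.e i) :
    g * g₂ = (g * g) * (g₂ * g) := by
  apply S.ρ_inj
  apply LinearMap.ext
  intro v
  have ha : S.φ (S.ρ g₂ (S.ρ g v)) (S.e i) = S.φ v (S.e i) := by
    have e1 := S.pres (g₂ * g) v (S.e i)
    rw [Sys.ρ_mul_apply, Sys.ρ_mul_apply, h.he, h'.he] at e1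
    exact e1
  show S.ρ (g * g₂) v = S.ρ (g * g * (g₂ * g)) v
  rw [Sys.ρ_mul_apply, Sys.ρ_mul_apply, Sys.ρ_mul_apply, Sys.ρ_mul_apply,
    ← Sys.ρ_mul_apply (g := g) (g' := g)]
  rw [h.sq_apply h2, ha]
  have e2 : S.ρ g (S.ρ g₂ v) = S.ρ g v + S.φ v (S.e i) • (S.ρ g z₂ - z) -
      (S.φ v z₂ - S.φ v (S.e i) * S.φ (S.f i) z₂ - S.φ v (S.f i)) • S.e i := by
    conv_lhs => rw [h'.apply h2 v]
    rw [map_sub, map_add, Sys.ρ_smul, Sys.ρ_smul, map_sub, h.hf, h.he]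
  have e3 : S.ρ g₂ (S.ρ g v) = S.ρ g₂ v + S.φ v (S.e i) • (S.ρ g₂ z - z₂) -
      (S.φ v z - S.φ v (S.e i) * S.φ (S.f i) z - S.φ v (S.f i)) • S.e i := by
    conv_lhs => rw [h.apply h2 v]
    rw [map_sub, map_add, Sys.ρ_smul, Sys.ρ_smul, map_sub, h'.hf, h'.he]
  rw [e2, e3, h.apply h2 v, h'.apply h2 v, sub_eq_iff_eq_add.1 hE]
  set L := S.φ v z - S.φ v (S.e i) * S.φ (S.f i) z - S.φ v (S.f i)
  set L' := S.φ v z₂ - S.φ v (S.e i) * S.φ (S.f i) z₂ - S.φ v (S.f i)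
  set a := S.φ v (S.e i)
  set D := cOf S i z + S.τ (cOf S i z)
  module

/-- Expansion of the form. -/
theorem φ_form (h2 : (2 : F) = 0) (S : Sys F V A K m) (i : Fin m) {u w : V}
    (h1 : S.φ u (S.e i) = 0) (h3 : S.φ u (S.f i) = 0) (h4 : S.φ (S.e i) w = 0) (h5 : S.φ (S.f i) w = 0)
    (a b : F) : S.φ (S.f i + a • S.e i + u) (S.f i + b • S.e i + w) = S.τ b + a + S.φ u w := by
  simp only [S.add_l, S.add_r, S.smul_l, S.smul_r, φ_f_f, φ_f_e S h2, φ_e_e, φ_e_f, h1, h3, h4, h5]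
  ring

end herm

section main

variable [Finite A] [Fintype K]

theorem exists_SD {g : A} (hg : S.IsSie g) : ∃ i z, SD S g i z ∧
    ∀ a : Fin m × Bool, a.1.val < i.val → S.φ (S.X a) z = 0 := by
  obtain ⟨i, z, h1, h2, h3, h4, h5, h6, h7⟩ := hg
  exact ⟨i, z, ⟨h1, h2, h4, h5, h6, h7⟩, h3⟩

theorem sie_sq_id (h2 : (2 : F) = 0) (hτ : ∀ c, S.τ c = c) {g : A} (hg : S.IsSie g) : g ∈ sqSub S.UU := by
  obtain ⟨i, z, h, -⟩ := exists_SD hg
  exact mem_sqSub_of_sq hg.mem_UU (h.sq_eq_one_of_id h2 hτ)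

/-- `U/U'` is elementary abelian for a bilinear form in characteristic two. -/
theorem SC_UU_id (hf : S.FullM) (h2 : (2 : F) = 0) (hτ : ∀ c, S.τ c = c) : SC ↥S.UU :=
  SC_of_le (Sys.UU_le_of_sie hf (fun _ hg => sie_sq_id h2 hτ hg))

theorem sie_sq_herm (hf : S.FullM) (h2 : (2 : F) = 0) (hN : ∀ x, S.Nm x = S.φ x x) {s : F}
    (hs : s + S.τ s = 1) {g : A} (hg : S.IsSie g) : g ∈ sqSub S.UU := by
  obtain ⟨i, z, h, hlow⟩ := exists_SD hg
  set c := cOf S i z with hc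
  set D := c + S.τ c with hD
  have hτD : S.τ D = D := by
    rw [hD, map_add, S.ττ]
    ring
  set z' := z - S.f i - c • S.e i with hz'
  have hz'e : S.φ z' (S.e i) = 0 := by
    rw [hz', S.φ_sub_l, S.φ_sub_l, S.smul_l, h.φ_z_e h2, φ_f_e S h2, φ_e_e]
    simp
  have hz'f : S.φ z' (S.f i) = 0 := by
    rw [hz', S.φ_sub_l, S.φ_sub_l, S.smul_l, φ_f_f, φ_e_f]
    simp [hc, cOf]
  have hez' : S.φ (S.e i) z' = 0 := by
    rw [hz', S.φ_sub_r, S.φ_sub_r, S.smul_r, h.hz1, φ_e_f, φ_e_e]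
    simp
  have hfz' : S.φ (S.f i) z' = 0 := by
    rw [hz', S.φ_sub_r, S.φ_sub_r, S.smul_r, φ_f_z h2, φ_f_f, φ_f_e S h2]
    simp [hc]
  have zeq : z = S.f i + c • S.e i + z' := by
    rw [hz']
    abel
  have hz'z' : S.φ z' z' = D := by
    have e1 := φ_form h2 S i hz'e hz'f hez' hfz' c c
    rw [← zeq, h.φ_z_z] at e1
    have e2 : S.φ z' z' = -(S.τ c + c) := by
      rw [eq_neg_iff_add_eq_zero]
      rw [e1]
      ring
    rw [e2, hD]
    have : -(S.τ c + c) = (c + S.τ c) - 2 * (c + S.τ c) := by ring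
    rw [this, h2]
    ring
  -- the second element
  set c₂ := s * (s * S.τ s) * D with hc₂
  have hτc₂ : S.τ c₂ = S.τ s * (S.τ s * s) * D := by
    rw [hc₂, map_mul, map_mul, map_mul, S.ττ, hτD]
  set z₂ := S.f i + c₂ • S.e i + s • z' with hz₂
  have hsz'e : S.φ (s • z') (S.e i) = 0 := by rw [S.smul_l, hz'e, mul_zero]
  have hsz'f : S.φ (s • z') (S.f i) = 0 := by rw [S.smul_l, hz'f, mul_zero]
  have hesz' : S.φ (S.e i) (s • z') = 0 := by rw [S.smul_r, hez', mul_zero]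
  have hfsz' : S.φ (S.f i) (s • z') = 0 := by rw [S.smul_r, hfz', mul_zero]
  have h1z₂ : S.φ (S.e i) z₂ = 1 := by
    rw [hz₂, S.add_r, S.add_r, S.smul_r, φ_e_f, φ_e_e, hesz']
    simp
  have hNz₂ : S.Nm z₂ = 0 := by
    rw [hN, hz₂, φ_form h2 S i hsz'e hsz'f hesz' hfsz', S.smul_l, S.smul_r, hz'z', hτc₂]
    have e : S.τ s * (S.τ s * s) * D + c₂ + s * (S.τ s * D) =
        (s + S.τ s) * (s * S.τ s * D) + s * S.τ s * D := by
      rw [hc₂]
      ring
    rw [e, hs]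
    have e3 : 1 * (s * S.τ s * D) + s * S.τ s * D = 2 * (s * S.τ s * D) := by ring
    rw [e3, h2, zero_mul]
  obtain ⟨g₂, a1, a2, a3, a4⟩ := S.exists_sie hf i hNz₂ h1z₂
  have h' : SD S g₂ i z₂ := ⟨hNz₂, h1z₂, a1, a2, a3, a4⟩
  have hg₂ : S.IsSie g₂ := by
    refine ⟨i, z₂, hNz₂, h1z₂, ?_, a1, a2, a3, a4⟩
    intro a ha
    have hne : a.1 ≠ i := fun e => by
      rw [e] at ha
      exact lt_irrefl _ ha
    have e1 : S.φ (S.X a) (S.e i) = 0 := by
      apply S.φ_X_of_ne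
      intro e
      exact hne (congrArg Prod.fst e).symm
    have e3 : S.φ (S.X a) (S.f i) = 0 := by
      apply S.φ_X_of_ne
      intro e
      exact hne (congrArg Prod.fst e).symm
    have e4 : S.φ (S.X a) z' = 0 := by
      rw [hz', S.φ_sub_r, S.φ_sub_r, S.smul_r, hlow a ha, e1, e3]
      simp
    rw [hz₂, S.add_r, S.add_r, S.smul_r, S.smul_r, e1, e3, e4]
    simp
  have hcz₂ : cOf S i z₂ = c₂ := by
    show S.φ z₂ (S.f i) = c₂
    rw [hz₂, S.add_l, S.add_l, S.smul_l, φ_f_f, φ_e_f, hsz'f]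
    simp
  have hE : S.ρ g z₂ - S.ρ g₂ z = D • S.e i := by
    rw [h.apply h2 z₂, h'.apply h2 z, h'.φ_z_e h2, h.φ_z_e h2, φ_f_z h2 S i z, φ_f_z h2 S i z₂, hcz₂]
    have e1 : S.φ z₂ z = S.τ c + c₂ + s * D := by
      have := φ_form h2 S i hsz'e hsz'f hez' hfz' c₂ c
      rw [← zeq] at this
      rw [hz₂, this, S.smul_l, hz'z']
    have e2 : S.φ z z₂ = S.τ c₂ + c + S.τ s * D := by
      have := φ_form h2 S i hz'e hz'f hesz' hfsz' c c₂
      rw [← zeq] at this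
      rw [hz₂, this, S.smul_r, hz'z']
    have e3 : S.φ z₂ (S.f i) = c₂ := hcz₂
    have e4 : S.φ z (S.f i) = c := rfl
    rw [e1, e2, e3, e4]
    have e5 : S.τ s - s = 1 := by
      have : S.τ s - s = (s + S.τ s) - 2 * s := by ring
      rw [this, hs, h2]
      ring
    have e6 : D = (S.τ s - s) * D := by rw [e5, one_mul]
    conv_rhs => rw [e6]
    module
  have hcomm := h.comm_eq h2 h' hE
  refine mem_sqSub_of_comm hg.mem_UU hg.mem_UU hg₂.mem_UU ?_
  have e : g * g = (g * g₂) * (g₂ * g)⁻¹ := by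
    rw [hcomm]
    group
  rw [e]
  group

/-- `U/U'` is elementary abelian for a hermitian form in characteristic two. -/
theorem SC_UU_herm (hf : S.FullM) (h2 : (2 : F) = 0) (hN : ∀ x, S.Nm x = S.φ x x) {s : F}
    (hs : s + S.τ s = 1) : SC ↥S.UU :=
  SC_of_le (Sys.UU_le_of_sie hf (fun _ hg => sie_sq_herm hf h2 hN hs hg))

end main

end

end Cfsg.Agent.Lib.SqSyl
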