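import Cfsg.Agent.Lib.SqSyl.Polar
import Cfsg.Agent.Lib.ClPlus5
import Cfsg.Agent.Lib.ClSp
import Cfsg.Agent.Lib.ClUnit
import Cfsg.Agent.Lib.ClOrthMinus

/-!
# Sylow subgroups of the groups of polar systems
-/

set_option autoImplicit false
set_option linter.unusedSectionVars false
set_option linter.unusedVariables false

namespace Cfsg.Agent.Lib.SqSyl

open Module Matrix Cfsg.Agent.Lib.ClPolar Cfsg.Agent.Lib.ClBN2 Cfsg.Agent.Lib.StBN50
open Cfsg.Agent.Lib.ClPolar.Sys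

noncomputable section

variable {F V A K : Type*} [Field F] [AddCommGroup V] [Module F V] [Group A] {m : ℕ}
variable [Finite A] [Fintype K]

/-- The unipotent group of a polar system is a Sylow subgroup. -/
theorem allSC_descent_bn (S : Sys F V A K m) (p : ℕ) [Fact p.Prime] [CharP F p] (hf : S.FullM)
    (P : Cfsg.BNPair A) (hPB : P.B = S.B) (hPN : P.N = S.NN)
    (Γ : Subgroup A) [Γ.Normal] (hAT : ∀ a : A, ∃ h ∈ Γ, ∃ t ∈ S.TT, a = h * t)
    (hU : S.UU ≤ Γ)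
    (hT : ∀ t ∈ S.TT, t ∈ Γ → (∀ a, S.ρ t (S.X a) = S.X a) → t ^ p = 1 → t = 1)
    (hSC : SC ↥S.UU) : AllSC p ↥Γ := by
  have hBN : P.B ⊓ P.N = S.TT := by
    rw [hPB, hPN]
    exact S.inf_eq
  have hAT' : ∀ a : A, ∃ h ∈ Γ, ∃ t ∈ P.B ⊓ P.N, a = h * t := by
    intro a
    obtain ⟨h, hh, t, ht, e⟩ := hAT a
    exact ⟨h, hh, t, by rw [hBN]; exact ht, e⟩
  have hdB : ∀ x, x ∈ (descent P Γ hAT').B ↔ (x : A) ∈ S.B := fun x => by
    rw [← hPB]
    exact Subgroup.mem_subgroupOf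
  have hdN : ∀ x, x ∈ (descent P Γ hAT').N ↔ (x : A) ∈ S.NN := fun x => by
    rw [← hPN]
    exact Subgroup.mem_subgroupOf
  have hcard : p ^ (Nat.card ↥Γ).factorization p = Nat.card ↥(S.UU.subgroupOf Γ) := by
    apply card_eq_of_split (P := descent P Γ hAT') (U := S.UU.subgroupOf Γ)
    · rintro ⟨b, hbΓ⟩ hb
      have hb' : b ∈ S.B := (hdB _).1 hb
      obtain ⟨u, hu, t, ht, e⟩ := exists_UT (S := S) hf hb'
      have huΓ := hU hu
      have htΓ : t ∈ Γ := by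
        have : t = u⁻¹ * b := by rw [e]; group
        rw [this]
        exact Γ.mul_mem (Γ.inv_mem huΓ) hbΓ
      refine ⟨⟨u, huΓ⟩, Subgroup.mem_subgroupOf.2 hu, ⟨t, htΓ⟩, ⟨(hdB _).2 (S.TT_le_B ht),
        (hdN _).2 (S.TT_le_NN ht)⟩, Subtype.ext e⟩
    · rintro ⟨b, hbΓ⟩ hb ⟨u, huΓ⟩ hu
      exact Subgroup.mem_subgroupOf.2 (UU_conj ((hdB _).1 hb) (Subgroup.mem_subgroupOf.1 hu))
    · rintro ⟨u, huΓ⟩ hu
      exact (hdB _).2 (UU_le_B (Subgroup.mem_subgroupOf.1 hu))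
    · exact (isPGroup_UU (S := S) p).comap_subtype
    · intro hd
      have h1 : ¬ p ∣ Nat.card ↥(S.TT ⊓ Γ) := not_dvd_card_of p _ inf_le_left (by
        intro t ht h2 h3
        exact hT t ht.1 ht.2 h2 h3)
      apply h1
      have e : Nat.card ↥((descent P Γ hAT').B ⊓ (descent P Γ hAT').N) =
          Nat.card ↥(S.TT ⊓ Γ) := by
        apply Nat.card_congr
        refine Equiv.ofBijective (fun x => ⟨x.1.1, ?_, x.1.2⟩) ⟨?_, ?_⟩
        · have h2 : x.1.1 ∈ S.B ⊓ S.NN := ⟨(hdB _).1 x.2.1, (hdN _).1 x.2.2⟩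
          rwa [S.inf_eq] at h2
        · rintro ⟨⟨x, hx⟩, hx'⟩ ⟨⟨y, hy⟩, hy'⟩ hxy
          have : x = y := congrArg (fun z : ↥(S.TT ⊓ Γ) => z.1) hxy
          subst this
          rfl
        · rintro ⟨x, hx, hx2⟩
          exact ⟨⟨⟨x, hx2⟩, (hdB _).2 (S.TT_le_B hx), (hdN _).2 (S.TT_le_NN hx)⟩, rfl⟩
      rw [← e]
      exact hd
    · rw [eq_bot_iff]
      rintro ⟨x, hxΓ⟩ ⟨hx1, hx2, hx3⟩
      have h1 : x ∈ S.UU := Subgroup.mem_subgroupOf.1 hx1
      have h2 : x ∈ S.B ⊓ S.NN := ⟨(hdB _).1 hx2, (hdN _).1 hx3⟩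
      rw [S.inf_eq] at h2
      have h3 : x ∈ S.UU ⊓ S.TT := ⟨h1, h2⟩
      rw [UU_inf_TT] at h3
      rw [Subgroup.mem_bot] at h3 ⊢
      exact Subtype.ext h3
  exact AllSC.of_card hcard.symm (SC.of_equiv (Subgroup.subgroupOfEquivOfLe hU).symm hSC)

/-- The quotient by the centre. -/
theorem AllSC.quot {p : ℕ} [Fact p.Prime] {G : Type*} [Group G] [Finite G] (h : AllSC p G) :
    AllSC p (G ⧸ Subgroup.center G) :=
  AllSC.of_surj (QuotientGroup.mk' _) (QuotientGroup.mk'_surjective _) h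

omit [Finite A] [Fintype K] in
theorem two_of_char (h : CharP F 2) : (2 : F) = 0 := CharTwo.two_eq_zero

section Sp

variable {F' : Type*} [Field F'] [Fintype F'] [CharP F' 2]

/-- Symplectic groups. -/
theorem allSC_PSp (m : ℕ) : AllSC 2 (Cfsg.PSp m F') := by
  haveI : Fact (Nat.Prime 2) := ⟨Nat.prime_two⟩
  haveI : Finite (symplecticGroup (Fin m) F') := Subtype.finite
  apply AllSC.quot
  have h := allSC_descent_bn (ClSp.sys F' m) 2 ClSp.sys_full.fullM
    ((ClSp.sys F' m).bn ClSp.sys_full ClSp.sys_thick) rfl rfl ⊤ (fun a => ⟨a, trivial, 1, Subgroup.one_mem _, by simp⟩)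
    le_top (fun t ht _ h1 h2 => ClSp.sys_torus 2 t ht h1 h2)
    (SC_UU_id ClSp.sys_full.fullM CharTwo.two_eq_zero (fun _ => rfl))
  exact AllSC.of_equiv Subgroup.topEquiv h

end Sp

section U

open Cfsg.Agent.Lib.ClUnit Cfsg.Agent.Lib.HermForm Cfsg.Agent.Lib.FFNorm Cfsg.Agent.Lib.HermFrame

variable {F' : Type*} [Field F'] [Fintype F'] [CharP F' 2] {q n m' : ℕ} {K' : Type} [Fintype K'] [DecidableEq K']

theorem exists_trace_one (hF : Fintype.card F' = q ^ 2) : ∃ s : F', s + s ^ q = 1 := by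
  classical
  have hq2 := two_le hF
  have hq0 : q ≠ 0 := by omega
  have hex : ∃ x : F', x ^ q ≠ x := by
    by_contra hc
    push Not at hc
    have h1 := card_ker_pow_pred hF
    have h2 := card_units hF
    have h3 : ((powMonoidHom (q - 1) : F'ˣ →* F'ˣ).ker) = ⊤ := by
      rw [eq_top_iff]
      intro u _
      rw [MonoidHom.mem_ker, powMonoidHom_apply]
      apply Units.ext
      have h4 := hc (u : F')
      have h5 : (u : F') ^ q = (u : F') ^ (q - 1) * u := by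
        rw [← pow_succ]
        congr 1
        omega
      rw [h5] at h4
      have := mul_right_cancel₀ u.ne_zero (h4.trans (one_mul _).symm)
      simpa using this
    rw [h3, Subgroup.card_top, h2] at h1
    have h6 : q - 1 ≠ 0 := by omega
    have h7 : (q + 1) = 1 := by
      apply Nat.eq_of_mul_eq_mul_left (Nat.pos_of_ne_zero h6)
      rw [h1, mul_one]
    omega
  obtain ⟨x, hx⟩ := hex
  have h2 : (2 : F') = 0 := CharTwo.two_eq_zero
  have ht0 : x + x ^ q ≠ 0 := by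
    intro h
    apply hx
    have : x ^ q = x - (x + x ^ q) + 2 * x ^ q - x + x := by ring
    rw [h, h2] at this
    rw [CharTwo.add_eq_zero] at h
    exact h.symm
  set t := x + x ^ q with ht
  have htq : t ^ q = t := by
    rw [ht, add_pow_q hF, pow_pow_self hF]
    ring
  refine ⟨x / t, ?_⟩
  rw [div_pow, htq, ← add_div]
  exact div_self ht0

theorem allSC_Gam (D : UD F' q n m' K') (hm : 0 < m') : AllSC 2 ↥(Gam n F' q) := by
  haveI : Fact (Nat.Prime 2) := ⟨Nat.prime_two⟩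
  obtain ⟨s, hs⟩ := exists_trace_one (F' := F') D.hF
  exact allSC_descent_bn D.sys 2 D.sys_full.fullM (D.sys.bn D.sys_full (fun k _ => D.sys_thick k)) rfl rfl
    (Gam n F' q) (D.exists_Gam_T hm) (D.UU_le_Gam 2) (fun t _ _ h1 h2 => D.torus_p 2 h1 h2)
    (SC_UU_herm (s := s) D.sys_full.fullM CharTwo.two_eq_zero (fun _ => rfl) hs)

/-- Unitary groups. -/
theorem allSC_PSU (hn : 2 ≤ n) (hF : Fintype.card F' = q ^ 2) : AllSC 2 (Cfsg.PSU n F' q) := by
  haveI : Fact (Nat.Prime 2) := ⟨Nat.prime_two⟩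
  haveI : Finite ↥(Gam n F' q) := inferInstance
  refine AllSC.of_equiv (Cfsg.Agent.Lib.ClTransfer.quotCenterEquiv GamEquiv) (AllSC.quot ?_)
  rcases Nat.even_or_odd' n with ⟨m, hm | hm⟩
  · obtain ⟨D⟩ := exists_UD (F := F') (q := q) (n := n) (m := m) (K' := Empty) hF (by simpa using hm)
    exact allSC_Gam D (by omega)
  · obtain ⟨D⟩ := exists_UD (F := F') (q := q) (n := n) (m := m) (K' := Unit) hF (by simpa using hm)
    exact allSC_Gam D (by omega)

end U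

section Omega

open Cfsg.Agent.Lib.ClOrth Cfsg.Agent.Lib.OrthGroup Cfsg.Agent.Lib.OrthOmega Cfsg.Agent.Lib.OrthoCount

variable {F' : Type*} [Field F'] [Fintype F'] [CharP F' 2] {m' : ℕ}

/-- Elliptic orthogonal groups. -/
theorem allSC_binary {ι : Type} [Fintype ι] [DecidableEq ι] (D : OD F' ι (Fin 2) m')
    (hOG : O D.Q ≤ G D.Q) : AllSC 2 (Cfsg.POmega F' ⇑D.Q) := by
  haveI : Fact (Nat.Prime 2) := ⟨Nat.prime_two⟩
  haveI := D.instFiniteA
  have hw0 : D.Q (D.sys.w 0) ≠ 0 := D.Q_ne (D.W_w 0) (D.w_ne 0)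
  apply AllSC.quot
  exact allSC_descent_bn D.sys 2 D.sys_full.fullM (D.sys.bn D.sys_full (fun k _ => D.sys_thick hw0 k)) rfl rfl
    (Cfsg.Omega F' ⇑D.Q) (D.exists_Ω_T hOG hw0)
    (Sys.UU_le_of_sie D.sys_full.fullM (fun g hg => D.sie_mem_Ω hg))
    (fun t _ hΩ h1 h2 => by
        rcases D.torus_even_char h1 h2 with h | ⟨y, hy, e⟩
        · exact h
        · exact absurd (e ▸ hΩ) (D.refl_not_mem_Ω hOG hy))
    (SC_UU_id D.sys_full.fullM CharTwo.two_eq_zero (fun _ => rfl))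

theorem allSC_minus (a b : F') (hab : ∀ z₁ z₂ : F', z₁ ^ 2 + a * z₁ * z₂ + b * z₂ ^ 2 = 0 → z₁ = 0 ∧ z₂ = 0) :
    AllSC 2 (Cfsg.POmega F' ⇑(qMinus m' a b)) :=
  allSC_binary (odMinus F' m' a b hab) (hOG_minus a b hab)

variable [Nonempty (Fin m')]

/-- Hyperbolic orthogonal groups. -/
theorem allSC_plus (hOG : O (qPlus m' F') ≤ G (qPlus m' F')) (k : Fin m') (hk : k.val + 1 = m') :
    AllSC 2 (Cfsg.POmega F' ⇑(qPlus m' F')) := by
  haveI : Fact (Nat.Prime 2) := ⟨Nat.prime_two⟩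
  haveI := (odPlus F' m').instFiniteA
  have h := dhypo (F := F') k hk
  let Γ' : Subgroup ↥(HHo (m := m') (F := F')) := (Cfsg.Omega F' ⇑(odPlus F' m').Q).subgroupOf HHo
  haveI : Γ'.Normal := inferInstance
  have key : AllSC 2 ↥Γ' := allSC_descent_bn ((odPlus F' m').sys.restrict HHo) 2 h.fullM h.bnD rfl rfl Γ'
    (hAT_HH hOG k hk)
    (fun u hu => UU_le_Ω_plus 2 hOG k hk u.1 hu)
    (fun t _ _ h1 _ => Subtype.ext (Sys.eq_one_of_fix (S := (odPlus F' m').sys) (by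
      rintro (a | e)
      · exact h1 a
      · exact e.elim)))
    (SC_UU_id h.fullM CharTwo.two_eq_zero (fun _ => rfl))
  exact AllSC.of_equiv (Cfsg.Agent.Lib.ClTransfer.quotCenterEquiv (Subgroup.subgroupOfEquivOfLe Omega_le_HHo)) (AllSC.quot key)

end Omega

end

end Cfsg.Agent.Lib.SqSyl
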