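import Cfsg.Agent.Lib.SqSyl.Basic
import Cfsg.Agent.Lib.Chev.TwGen
import Cfsg.Agent.Lib.ChevSylow

/-!
# Squares in the unipotent subgroups of Chevalley groups and of twisted groups, characteristic two
-/

set_option autoImplicit false
set_option linter.unusedSectionVars false
set_option linter.unusedVariables false

namespace Cfsg.Agent.Lib.SqSyl

open Cfsg.Lie Matrix Equiv Cfsg.Agent.Lib.Chev
open Cfsg.Agent.Lib.Chev.Full (invF)

variable {T : Tabs} {X : Extra} {R : RootTab} {D : ChevalleyDatum} {F : Type*} [Field F]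

section chev

theorem SC_U (hF : Full T X R D) (h2 : (2 : F) = 0) : SC ↥(D.posUnipotent F) := by
  apply SC_of_le
  have : D.posUnipotent F ≤ sqSub (D.posUnipotent F) := by
    conv_lhs => rw [ChevalleyDatum.posUnipotent]
    rw [Subgroup.closure_le]
    rintro g ⟨r, t, hr, hg⟩
    refine mem_sqSub_of_sq (Subgroup.subset_closure ⟨r, t, hr, hg⟩) ?_
    rw [hF.c.eq_xG hg, hF.c.xG_add, ← two_mul, h2, zero_mul, hF.c.xG_zero]
  exact this

theorem allSC_chev (hF : Full T X R D) [Fintype F] [CharP F 2] : AllSC 2 ↥(D.group F) := by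
  haveI : Fact (Nat.Prime 2) := ⟨Nat.prime_two⟩
  obtain ⟨P, hP⟩ := ChevSylow.sylow_main hF (F := F) 2
  haveI : Finite ↥(D.group F) := inferInstance
  refine AllSC.of_sylow P ?_
  rw [hP]
  exact SC.of_equiv (Subgroup.subgroupOfEquivOfLe hF.c.posUnipotent_le_group).symm (SC_U hF CharTwo.two_eq_zero)

end chev

section tw

variable [Fintype F] {hF : Full T X R D} {τ : Tw hF F}

/-- Generation of the unipotent subgroup of a twisted group by the rank one subgroups and `N₁`. -/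
theorem U1_le (A : TwG τ) (H : Subgroup (GL D.Idx F))
    (hH : ∀ i (hi : i < D.rank), ∀ n : ↥(D.monomialSubgroup F), n.1 ∈ A.G1 →
      (∀ (m : ℕ) (hm : m < D.rank), m ∈ A.cls i →
        R.N ≤ ((hF.rhoN F n ⟨D.simple m, hF.simple_lt hm⟩ : Fin D.nroots) : ℕ)) →
      ∀ y ∈ UL D F (A.cls i), τ.s y = y → n.1 * y * n.1⁻¹ ∈ H) :
    D.posUnipotent F ⊓ A.G1 ≤ H := by
  have key : ∀ (d : ℕ) (n : ↥(D.monomialSubgroup F)), n.1 ∈ A.G1 → D.nroots + 1 - invF R D (hF.rhoN F n) ≤ d →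
      ∀ u ∈ D.posUnipotent F, u ∈ A.G1 → n.1⁻¹ * u * n.1 ∈ D.posUnipotent F → u ∈ H := by
    intro d
    induction d with
    | zero =>
      intro n hn hd
      have h1 : invF R D (hF.rhoN F n) ≤ D.nroots := by
        unfold invF
        exact (Finset.card_le_univ _).trans (by simp)
      omega
    | succ d ih =>
      intro n hn hd u hu huG hconj
      by_cases hall : ∀ (i : ℕ) (hi : i < D.rank),
          ((hF.rhoN F n ⟨D.simple i, hF.simple_lt hi⟩ : Fin D.nroots) : ℕ) < R.N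
      · -- the longest element
        obtain ⟨a, hact⟩ := hF.rhoN_spec n
        have hiff := TwGen.all_neg_of A (hF.rhoN_mem_Wk n) hall
        have hmapU := hF.map_conj_U_of_act hact hiff
        have huV : u ∈ D.negUnipotent F := by
          rw [← hmapU]
          refine ⟨_, hconj, ?_⟩
          show n.1 * (n.1⁻¹ * u * n.1) * n.1⁻¹ = u
          group
        have h1 : u ∈ D.borelSubgroup F ⊓ D.negUnipotent F := ⟨hF.c.posUnipotent_le_borel hu, huV⟩
        rw [hF.B_inf_V, Subgroup.mem_bot] at h1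
        rw [h1]
        exact Subgroup.one_mem _
      · push Not at hall
        obtain ⟨i, hi, hpos⟩ := hall
        have hpos' : ∀ (m' : ℕ) (hm' : m' < D.rank), m' ∈ A.cls i →
            R.N ≤ ((hF.rhoN F n ⟨D.simple m', hF.simple_lt hm'⟩ : Fin D.nroots) : ℕ) := by
          intro m' hm' hmc'
          exact (A.orbit_sign (A.rho_fix n hn) hi hm' hmc').2 hpos
        have h1 := hF.invF_add (J := A.cls i) (J' := Set.univ) (Set.subset_univ _) (hF.rhoN_mem_Wk n) hpos' _ _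
          (A.nC_W i hi) rfl
        have h2 := A.rhoN_nC_ne hi
        set s := A.nC i with hs
        have hsG1 : s.1 ∈ A.G1 := A.nC_mem i hi
        have hsW : hF.rhoN F s ∈ hF.Wk (A.cls i) := A.nC_W i hi
        have hst := A.stable i hi
        -- decompose
        have hu'G : n.1⁻¹ * u * n.1 ∈ A.G1 :=
          Subgroup.mul_mem _ (Subgroup.mul_mem _ (Subgroup.inv_mem _ hn) huG) hn
        obtain ⟨y₂, hy₂, q₂, hq₂, hdec⟩ := hF.exists_UL_Q (A.cls i) hconj
        have hu₂f := A.G1_fix _ hu'G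
        rw [hdec] at hu₂f
        have hy₂G : y₂ ∈ D.group F := hF.c.posUnipotent_le_group (hF.UL_le_U _ hy₂)
        have hq₂G : q₂ ∈ D.group F := hF.c.posUnipotent_le_group (hF.radical_le_U _ hq₂)
        rw [τ.s_mul hy₂G hq₂G] at hu₂f
        have e1 : (τ.s y₂)⁻¹ * y₂ = τ.s q₂ * q₂⁻¹ := by
          rw [inv_mul_eq_iff_eq_mul, ← mul_assoc, eq_mul_inv_iff_mul_eq]
          exact hu₂f.symm
        have e2 : τ.s q₂ * q₂⁻¹ ∈ D.unipotentRadical F (A.cls i) ⊓ UL D F (A.cls i) :=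
          ⟨Subgroup.mul_mem _ (τ.s_Q hst hq₂) (Subgroup.inv_mem _ hq₂), by
            rw [← e1]
            exact Subgroup.mul_mem _ (Subgroup.inv_mem _ (τ.s_UL hst hy₂)) hy₂⟩
        rw [hF.Q_inf_UL, Subgroup.mem_bot] at e2
        rw [e2] at e1
        have hy₂f : τ.s y₂ = y₂ := (inv_mul_eq_one.1 e1)
        have hy₂G1 := A.UL_fix i hi y₂ hy₂ hy₂f
        have hq₂G1 : q₂ ∈ A.G1 := by
          have h3 : y₂⁻¹ * (n.1⁻¹ * u * n.1) ∈ A.G1 := Subgroup.mul_mem _ (Subgroup.inv_mem _ hy₂G1) hu'G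
          rw [hdec, inv_mul_cancel_left] at h3
          exact h3
        have hconjy := hF.conj_UL_mem_U (hF.pos_on_LQ hpos') hy₂
        have hconjG1 : n.1 * y₂ * n.1⁻¹ ∈ A.G1 :=
          Subgroup.mul_mem _ (Subgroup.mul_mem _ hn hy₂G1) (Subgroup.inv_mem _ hn)
        have hyH : n.1 * y₂ * n.1⁻¹ ∈ H := hH i hi n hn hpos' y₂ hy₂ hy₂f
        -- the rest
        have hsN := hF.parabolic_le_normalizer (F := F) (A.cls i) (hF.mem_parabolic_of_rho hsW)
        have hq3 : s.1⁻¹ * q₂ * s.1 ∈ D.unipotentRadical F (A.cls i) := by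
          have h3 := (Subgroup.mem_set_normalizer_iff.1 (Subgroup.inv_mem _ hsN) q₂).1 hq₂
          rwa [inv_inv] at h3
        have eu : u = (n.1 * y₂ * n.1⁻¹) * (n.1 * q₂ * n.1⁻¹) := by
          have : u = n.1 * (n.1⁻¹ * u * n.1) * n.1⁻¹ := by group
          rw [this, hdec]
          group
        have hw : n.1 * q₂ * n.1⁻¹ = (n.1 * y₂ * n.1⁻¹)⁻¹ * u := by
          rw [eu]
          group
        have hwU : n.1 * q₂ * n.1⁻¹ ∈ D.posUnipotent F := by
          rw [hw]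
          exact Subgroup.mul_mem _ (Subgroup.inv_mem _ hconjy) hu
        have hwG : n.1 * q₂ * n.1⁻¹ ∈ A.G1 :=
          Subgroup.mul_mem _ (Subgroup.mul_mem _ hn hq₂G1) (Subgroup.inv_mem _ hn)
        have hwH : n.1 * q₂ * n.1⁻¹ ∈ H := by
          refine ih (n * s) (Subgroup.mul_mem _ hn hsG1) ?_ _ hwU hwG ?_
          · rw [map_mul, h1]
            omega
          · have e3 : ((n * s : ↥(D.monomialSubgroup F)) : GL D.Idx F)⁻¹ * (n.1 * q₂ * n.1⁻¹) *
                ((n * s : ↥(D.monomialSubgroup F)) : GL D.Idx F) = s.1⁻¹ * q₂ * s.1 := by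
              show (n.1 * s.1)⁻¹ * (n.1 * q₂ * n.1⁻¹) * (n.1 * s.1) = _
              group
            rw [e3]
            exact hF.radical_le_U _ hq3
        rw [eu]
        exact Subgroup.mul_mem _ hyH hwH
  rintro u ⟨hu, huG⟩
  refine key _ 1 (Subgroup.one_mem _) le_rfl u hu huG ?_
  simpa using hu

/-- `U₁/U₁'` is elementary abelian, from the rank one subgroups. -/
theorem SC_U1 (A : TwG τ)
    (hrk : ∀ i (hi : i < D.rank), ∀ y ∈ UL D F (A.cls i), τ.s y = y → y * y = 1 ∨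
      ∃ a ∈ UL D F (A.cls i), τ.s a = a ∧ ∃ b ∈ UL D F (A.cls i), τ.s b = b ∧ y * y = a * b * a⁻¹ * b⁻¹) :
    SC ↥(D.posUnipotent F ⊓ A.G1) := by
  apply SC_of_le
  apply U1_le
  intro i hi n hn hpos y hy hfix
  have hconj : ∀ y ∈ UL D F (A.cls i), τ.s y = y → n.1 * y * n.1⁻¹ ∈ D.posUnipotent F ⊓ A.G1 := by
    intro y hy hfix
    refine ⟨hF.conj_UL_mem_U (hF.pos_on_LQ hpos) hy, ?_⟩
    exact Subgroup.mul_mem _ (Subgroup.mul_mem _ hn (A.UL_fix i hi y hy hfix)) (Subgroup.inv_mem _ hn)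
  rcases hrk i hi y hy hfix with h | ⟨a, ha, hfa, b, hb, hfb, h⟩
  · refine mem_sqSub_of_sq (hconj y hy hfix) ?_
    have e : n.1 * y * n.1⁻¹ * (n.1 * y * n.1⁻¹) = n.1 * (y * y) * n.1⁻¹ := by group
    rw [e, h]
    group
  · refine mem_sqSub_of_comm (hconj y hy hfix) (hconj a ha hfa) (hconj b hb hfb) ?_
    have e : n.1 * y * n.1⁻¹ * (n.1 * y * n.1⁻¹) = n.1 * (y * y) * n.1⁻¹ := by group
    rw [e, h]
    group

end tw

end Cfsg.Agent.Lib.SqSyl
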