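import Cfsg.Agent.Lib.SqSyl.Tw
import Cfsg.Agent.Lib.Chev.TwE6BN
import Cfsg.Agent.Lib.Chev.TwD4BN
import Cfsg.Agent.Lib.Chev.TwF4AutB
import Cfsg.Agent.Lib.Suzuki4
import Cfsg.Agent.Lib.SuzukiIso

/-!
# The twisted groups in characteristic two
-/

set_option autoImplicit false
set_option linter.unusedSectionVars false
set_option linter.unusedVariables false

namespace Cfsg.Agent.Lib.SqSyl

open Cfsg.Lie Matrix Equiv Cfsg.Agent.Lib.Chev

section abstract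

variable {G : Type*} [Group G]

theorem allSC_of_U1 (U G1 : Subgroup G) [Finite G1] {N M g : ℕ} (hcU : Nat.card ↥(U ⊓ G1) = 2 ^ N)
    (hc : g * Nat.card G1 = 2 ^ N * M) (hM : Odd M) (hSC : SC ↥(U ⊓ G1)) : AllSC 2 ↥G1 := by
  haveI : Fact (Nat.Prime 2) := ⟨Nat.prime_two⟩
  let e : ↥(U ⊓ G1) ≃* ↥(U.subgroupOf G1) :=
    { toFun := fun x => ⟨⟨x.1, x.2.2⟩, Subgroup.mem_subgroupOf.2 x.2.1⟩
      invFun := fun x => ⟨x.1.1, Subgroup.mem_subgroupOf.1 x.2, x.1.2⟩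
      left_inv := fun x => rfl
      right_inv := fun x => rfl
      map_mul' := fun x y => rfl }
  have hc2 : Nat.card ↥(U.subgroupOf G1) = 2 ^ N := by rw [← Nat.card_congr e.toEquiv, hcU]
  refine AllSC.of_sub (U := U.subgroupOf G1) (IsPGroup.of_card hc2) ?_ (SC.of_equiv e hSC)
  intro hd
  have h4 := (U.subgroupOf G1).card_mul_index
  rw [hc2] at h4
  rw [← h4] at hc
  have h5 : g * (U.subgroupOf G1).index = M := by
    apply Nat.eq_of_mul_eq_mul_left (pow_pos (by norm_num : 0 < 2) N)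
    rw [← hc]
    ring
  rw [← h5] at hM
  exact (Nat.not_even_iff_odd.2 hM) ((even_iff_two_dvd.2 hd).mul_left _)

end abstract

section oddness

theorem odd_pow_sub_one {q : ℕ} (hq : Even q) (hq1 : 1 ≤ q) {k : ℕ} (hk : k ≠ 0) : Odd (q ^ k - 1) :=
  Nat.Even.sub_odd (Nat.one_le_pow _ _ hq1) (hq.pow_of_ne_zero hk) odd_one

theorem odd_pow_add_one {q : ℕ} (hq : Even q) {k : ℕ} (hk : k ≠ 0) : Odd (q ^ k + 1) :=
  (hq.pow_of_ne_zero hk).add_odd odd_one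

end oddness

section sc

variable {T : Tabs} {X : Extra} {R : RootTab} {D : ChevalleyDatum} {F : Type*} [Field F] [Fintype F]
  {hF : Full T X R D} {τ : Tw hF F} {f : F ≃+* F} {ρ' π' : ℕ → ℕ} {J : ℕ → List ℕ} {A dd : ℕ → ℕ}

theorem sc_UL_sq (h : SCOK τ f ρ' π' J A dd) (h2 : (2 : F) = 0) {i : ℕ} (hi : i < D.rank) {y : GL D.Idx F}
    (hy : y ∈ UL D F ((h.twG).cls i)) : y * y = 1 := by
  have hc : hF.CommL F (rsOf ρ' (D.simple (A i)) (dd i)) := by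
    rw [h.rs_eq hi]
    exact h.comm_pos hi
  have hnd : (rsOf ρ' (D.simple (A i)) (dd i)).Nodup := by
    rw [h.rs_eq hi]
    exact h.nd_rs hi
  obtain ⟨t, rfl⟩ := hF.exists_wL_of_mem hc hnd (h.lq_rs hi) hy
  rw [hF.wL_mul hc, hF.wL_congr (t' := fun _ => 0), hF.wL_zero]
  intro r _
  rw [← two_mul, h2, zero_mul]

theorem SC_U1_sc (h : SCOK τ f ρ' π' J A dd) (h2 : (2 : F) = 0) : SC ↥(D.posUnipotent F ⊓ h.G1) :=
  SC_U1 h.twG (fun i hi y hy _ => Or.inl (sc_UL_sq h h2 hi hy))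

end sc

section E6

variable {K : Type*} [Field K] [Fintype K] [CharP K 2]

theorem even_of_pow {q k : ℕ} (hK : Fintype.card K = q ^ k) (hk : k ≠ 0) : Even q := by
  have h1 : (2 : ℕ) ∣ Fintype.card K := by
    haveI : Fact (Nat.Prime 2) := ⟨Nat.prime_two⟩
    obtain ⟨n, _, hn⟩ := FiniteField.card K 2
    rw [hn]
    exact dvd_pow_self 2 (n.pos.ne')
  rw [hK] at h1
  exact even_iff_two_dvd.2 (Nat.prime_two.dvd_of_dvd_pow h1)

theorem exists_two_pow {q k : ℕ} (hq : IsPrimePow q) (hK : Fintype.card K = q ^ k) (hk : k ≠ 0) : ∃ N, q = 2 ^ N := by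
  obtain ⟨p, n, hp, hn, rfl⟩ := hq
  have he : Even (p ^ n) := even_of_pow hK hk
  have hp2 : p = 2 := by
    have h1 : (2 : ℕ) ∣ p ^ n := even_iff_two_dvd.1 he
    have h2 := Nat.prime_two.dvd_of_dvd_pow h1
    have hpN : p.Prime := Nat.prime_iff.2 hp
    exact ((Nat.prime_dvd_prime_iff_eq Nat.prime_two hpN).1 h2).symm
  exact ⟨n, by rw [hp2]⟩

/-- The group ²E₆. -/
theorem allSC_E6 {q : ℕ} (hq : IsPrimePow q) (hK : Fintype.card K = q ^ 2) : AllSC 2 ↥(twistedE6 K q) := by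
  haveI : Finite ↥(twistedE6 K q) := Subtype.finite
  obtain ⟨N, hN⟩ := exists_two_pow hq hK (by norm_num)
  have hqe : Even q := even_of_pow hK (by norm_num)
  have hq1 : 1 ≤ q := hq.one_lt.le
  obtain ⟨f, hf, hf2⟩ := TwE6.exists_frob2 hq hK
  refine allSC_of_U1 (chevE6.posUnipotent K) (twistedE6 K q) (N := N * 36) (g := Nat.gcd 3 (q + 1))
    (M := (q ^ 2 - 1) * (q ^ 5 + 1) * (q ^ 6 - 1) * (q ^ 8 - 1) * (q ^ 9 + 1) * (q ^ 12 - 1)) ?_ ?_ ?_ ?_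
  · rw [TwE6.card_U1 hq hK, pow_mul, hN]
  · rw [TwE6.card_twisted hq hK, pow_mul, ← hN]
    ring
  · exact (((((odd_pow_sub_one hqe hq1 (by norm_num)).mul (odd_pow_add_one hqe (by norm_num))).mul
      (odd_pow_sub_one hqe hq1 (by norm_num))).mul (odd_pow_sub_one hqe hq1 (by norm_num))).mul
      (odd_pow_add_one hqe (by norm_num))).mul (odd_pow_sub_one hqe hq1 (by norm_num))
  · rw [← TwE6.G1_eq f hf hf2]
    exact SC_U1_sc (TwE6.sc f) CharTwo.two_eq_zero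

/-- The group ³D₄. -/
theorem allSC_D4 {q : ℕ} (hq : IsPrimePow q) (hK : Fintype.card K = q ^ 3) : AllSC 2 ↥(twistedD4 K q) := by
  haveI : Finite ↥(twistedD4 K q) := Subtype.finite
  obtain ⟨N, hN⟩ := exists_two_pow hq hK (by norm_num)
  have hqe : Even q := even_of_pow hK (by norm_num)
  have hq1 : 1 ≤ q := hq.one_lt.le
  obtain ⟨f, hf, hf3⟩ := TwD4.exists_frob3 hq hK
  refine allSC_of_U1 (chevD4.posUnipotent K) (twistedD4 K q) (N := N * 12) (g := 1)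
    (M := (q ^ 2 - 1) * (q ^ 6 - 1) * (q ^ 8 + q ^ 4 + 1)) ?_ ?_ ?_ ?_
  · rw [TwD4.card_U1 hq hK, pow_mul, hN]
  · rw [TwD4.card_twisted hq hK, pow_mul, ← hN]
    ring
  · refine ((odd_pow_sub_one hqe hq1 (by norm_num)).mul (odd_pow_sub_one hqe hq1 (by norm_num))).mul ?_
    exact ((hqe.pow_of_ne_zero (by norm_num)).add (hqe.pow_of_ne_zero (by norm_num))).add_odd odd_one
  · rw [← TwD4.G1_eq f hf hf3]
    exact SC_U1_sc (TwD4.sc f) CharTwo.two_eq_zero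

end E6

section F4

open TwF4
open Cfsg.Agent.Lib.Chev.TwWF4 (gen)

variable {K : Type*} [Field K] [Fintype K] {m : ℕ}

/-- The rank one squares of `²F₄`. -/
theorem F4_rk (hm : 1 ≤ m) (hK : Fintype.card K = 2 ^ (2 * m + 1)) (d : Dat K (2 ^ m)) (i : ℕ) (hi : i < chevF4.rank)
    (y : GL chevF4.Idx K) (hy : y ∈ UL chevF4 K ((d.twG).cls i)) (hs : d.τ.s y = y) :
    y * y = 1 ∨ ∃ a ∈ UL chevF4 K ((d.twG).cls i), d.τ.s a = a ∧ ∃ b ∈ UL chevF4 K ((d.twG).cls i), d.τ.s b = b ∧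
      y * y = a * b * a⁻¹ * b⁻¹ := by
  haveI : Cfsg.Agent.Lib.Suzuki.SzHyp K m := ⟨hm, hK⟩
  haveI : CharP K 2 := Cfsg.Agent.Lib.Suzuki.charP_two K m
  rcases genL_cases hi with hg | hg
  · left
    have hc : (d.twG).cls i = (d.twG).cls 0 := by
      show {x | x ∈ gen i} = {x | x ∈ gen 0}
      rw [hg, gen_vals.1]
    rw [hc] at hy
    obtain ⟨t, rfl⟩ := d.gp_of_UL hy hs
    have e : (d.gp t).1 * (d.gp t).1 = (d.gp t * d.gp t).1 := rfl
    rw [e, d.gp_mul]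
    have h1 : t + t = 0 := by linear_combination t * d.h2
    rw [h1, d.gp_zero]
    rfl
  · right
    have hc : (d.twG).cls i = (d.twG).cls 1 := by
      show {x | x ∈ gen i} = {x | x ∈ gen 1}
      rw [hg, gen_vals.2.1]
    rw [hc] at hy ⊢
    obtain ⟨t, u, rfl⟩ := d.gb_of_UL hy hs
    have e : (d.gb t u).1 * (d.gb t u).1 = (d.gb t u * d.gb t u).1 := rfl
    rw [e, d.gb_sq]
    -- the commutator
    have hfphi : ∀ x : K, d.f (Cfsg.Agent.Lib.Suzuki.phi m x) = x := by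
      intro x
      rw [d.hf, Cfsg.Agent.Lib.Suzuki.phi, ← pow_mul]
      have : 2 ^ (m + 1) * 2 ^ m = 2 ^ (2 * m + 1) := by ring
      rw [this, ← hK]
      exact FiniteField.pow_card x
    obtain ⟨a₁, a₂, ha⟩ := Cfsg.Agent.Lib.Suzuki4.exists_comm_eq (F := K) (m := m)
      (Cfsg.Agent.Lib.Suzuki.phi m (d.f t * t))
    have ha2 : a₁ * d.f a₂ + a₂ * d.f a₁ = d.f t * t := by
      have := congrArg d.f ha
      rw [hfphi, map_add, map_mul, map_mul, hfphi, hfphi] at this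
      exact this
    have hfix : ∀ t u, d.τ.s (d.gb t u).1 = (d.gb t u).1 := fun t u => (d.twG).G1_fix _ (d.gb t u).2
    refine ⟨(d.gb a₂ 0).1, d.gb_mem_UL _ _, hfix _ _, (d.gb a₁ 0).1, d.gb_mem_UL _ _, hfix _ _, ?_⟩
    have e2 : (d.gb a₂ 0).1 * (d.gb a₁ 0).1 * ((d.gb a₂ 0).1)⁻¹ * ((d.gb a₁ 0).1)⁻¹ =
        ((d.gb a₂ 0) * (d.gb a₁ 0) * (d.gb a₂ 0)⁻¹ * (d.gb a₁ 0)⁻¹).1 := rfl
    rw [e2]
    congr 1
    have e3 : d.gb a₂ 0 * d.gb a₁ 0 = d.gb 0 (d.f t * t) * (d.gb a₁ 0 * d.gb a₂ 0) := by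
      rw [d.gb_mul, d.gb_mul, d.gb_mul]
      have e4 : a₂ + a₁ = 0 + (a₁ + a₂) := by ring
      have e5 : 0 + 0 + d.f a₂ * a₁ = d.f t * t + (0 + 0 + d.f a₁ * a₂) + d.f 0 * (a₁ + a₂) := by
        rw [map_zero, ← ha2]
        linear_combination (-(a₂ * d.f a₁)) * d.h2
      rw [e4, e5]
    rw [e3]
    group

/-- The group ²F₄. -/
theorem allSC_F4 (hm : 1 ≤ m) (hK : Fintype.card K = 2 ^ (2 * m + 1)) : AllSC 2 ↥(twistedF4 K (2 ^ m)) := by
  haveI : Finite ↥(twistedF4 K (2 ^ m)) := Subtype.finite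
  obtain ⟨d⟩ := exists_dat (K := K) hK
  have hU := d.card_U1
  have hG := d.card_G1
  set Q := Fintype.card K with hQ
  have hQe : Even Q := by
    rw [hK]
    exact Nat.even_pow.2 ⟨even_two, by omega⟩
  have hQ1 : 1 ≤ Q := Fintype.card_pos
  refine allSC_of_U1 (chevF4.posUnipotent K) (twistedF4 K (2 ^ m)) (N := (2 * m + 1) * 12) (g := 1)
    (M := (Q - 1) ^ 2 * ((Q ^ 3 + 1) * (Q ^ 3 + Q ^ 2 + Q + 1) * (Q ^ 6 + 1))) ?_ ?_ ?_ ?_
  · rw [hU, hK, pow_mul]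
  · rw [hG, one_mul, pow_mul, ← hK]
    ring
  · have o1 : Odd (Q - 1) := Nat.Even.sub_odd hQ1 hQe odd_one
    have e3 : Even (Q ^ 3) := hQe.pow_of_ne_zero (by norm_num)
    have e2 : Even (Q ^ 2) := hQe.pow_of_ne_zero (by norm_num)
    have e6 : Even (Q ^ 6) := hQe.pow_of_ne_zero (by norm_num)
    have o2 : Odd (Q ^ 3 + 1) := e3.add_odd odd_one
    have o3 : Odd (Q ^ 3 + Q ^ 2 + Q + 1) := ((e3.add e2).add hQe).add_odd odd_one
    have o4 : Odd (Q ^ 6 + 1) := e6.add_odd odd_one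
    exact (o1.pow).mul ((o2.mul o3).mul o4)
  · exact SC_U1 d.twG (F4_rk hm hK d)

end F4

section Sz

open Cfsg.Agent.Lib.Suzuki Cfsg.Agent.Lib.Suzuki4

variable {F : Type*} [Field F] [Fintype F] {m : ℕ} [SzHyp F m] [CharP F 2]

theorem SC_Tsub : SC ↥(Tsub F m) := by
  intro x
  obtain ⟨a, b, rfl⟩ := exists_ttS x
  have e := two_zero (F := F)
  have h : (ttS a b : Tsub F m) ^ 2 = ttS 0 (phi m a * a) := by
    rw [pow_two, ttS_mul]
    congr 1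
    · linear_combination a * e
    · linear_combination b * e
  rw [h, ← center_eq_commutator_Tsub]
  exact mem_center_Tsub.2 ⟨_, rfl⟩

/-- The Suzuki groups. -/
theorem allSC_Sz : AllSC 2 ↥(Lie.Sz F (2 ^ (m + 1))) := by
  haveI : Fact (Nat.Prime 2) := ⟨Nat.prime_two⟩
  haveI : Finite (Sz F m) := inferInstance
  exact AllSC.of_equiv Cfsg.Agent.Lib.SuzukiIso.szEquiv (AllSC.of_sub isPGroup_Tsub odd_index_Tsub SC_Tsub)

end Sz

end Cfsg.Agent.Lib.SqSyl
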